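import Cfsg.Agent.E7P.Rsl.Std
import Cfsg.Agent.E7P.En1.Rat

/-!
# S5932: commuting rational `SL₂`'s in standard position (helper61)

* `Fam k p ι` : the family with the properties which come from the maximal subgroup; `move`;
* `cent` : **CENT**; `lab_le` : the labels; `zV`, `zL` : isolated weights; `orth` : orthogonality.
-/

set_option autoImplicit false
set_option maxRecDepth 100000
set_option maxHeartbeats 400000

namespace Cfsg.Agent.E7P.Rsl

open Cfsg Cfsg.Lie Matrix Module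
open Cfsg.Agent.H943.E7V.Block (D1 rho)
open Cfsg.Agent.R2.T1 Cfsg.Agent.E7P.Kf Cfsg.Agent.E7P.Br
open Cfsg.Agent.R2.PX (del)
open Cfsg.Agent.H943.SL2Rel (u w h)
open Cfsg.Agent.ChevalleyStructure.RootVec (rt)

universe u

variable {k : Type u} [Field k]

theorem lev_cw (ζ : Fin 7 → ℤ) {r : ℕ} (hr : r < 126) : lev (nt_cw ζ) (rc r) = 2 * pc r ζ := nt_cw_root ζ hr

theorem lev_simple (l : Fin 7 → ℤ) (i : Fin 7) : (lev l (rc (chevE7.simple i)) : ℝ) = lE l i :=
  (lev_cast _ _).trans (bf_al _ _)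

theorem lE_zero : lE 0 = 0 := by simp [lE]

theorem cw_eq_zero {ζ : Fin 7 → ℤ} (e : nt_cw ζ = 0) : ζ = 0 := by
  funext i
  have h1 := lev_cw ζ (simple_lt7 i i.2)
  rw [e, nt_pc_simple] at h1
  simp only [lev, Pi.zero_apply, mul_zero, Finset.sum_const_zero] at h1
  show ζ i = 0
  omega

theorem chk_form : ∀ i < 7, ∀ j < 7, (R2.PX.W56.map fun s => chevE8.cartan i s * chevE8.cartan j s).sum =
    12 * chevE7.cartan i (chevE7.simple j) := by decide +kernel

/-- the invariant form as a sum over the weights -/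
theorem sum_form (x y : Kf.E) : ∑ s, bf x (wv s) * bf y (wv s) = 12 * bf x y := by
  have h1 : ∀ x : Kf.E, ∃ c : Fin 7 → ℝ, x = ∑ i, c i • al i := fun x => ⟨fun i => bf x (Pi.single i 1), funext fun j => by
    rw [Finset.sum_apply, ← bf_al x j]
    conv_lhs => rw [pi_eq_sum_univ' (al j), map_sum]
    refine Finset.sum_congr rfl fun i _ => ?_
    rw [map_smul, Pi.smul_apply, smul_eq_mul, smul_eq_mul, mul_comm, ← bf_al (al j), bf_symm (al j), bf_al]⟩
  have h2 : ∀ i j, ∑ s, bf (al i) (wv s) * bf (al j) (wv s) = 12 * bf (al i) (al j) := fun i j => by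
    have h3 := (R2.PX.sumD1 fun s => chevE8.cartan i s * chevE8.cartan j s).trans (chk_form i i.2 j j.2)
    simp only [bf_symm (al _) (wv _), bf_al]
    rw [← bf_al (al i), bf_symm, bf_al]
    have h4 := congrArg (Int.cast : ℤ → ℝ) h3
    push_cast at h4
    exact h4
  obtain ⟨c, rfl⟩ := h1 x
  obtain ⟨d, rfl⟩ := h1 y
  simp only [map_sum, map_smul, LinearMap.sum_apply, LinearMap.smul_apply, smul_eq_mul, Finset.sum_mul, Finset.mul_sum]
  rw [Finset.sum_comm]
  refine Finset.sum_congr rfl fun j _ => ?_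
  rw [Finset.sum_comm]
  refine Finset.sum_congr rfl fun i _ => ?_
  rw [mul_left_comm (12 : ℝ), mul_left_comm (12 : ℝ), ← h2, Finset.mul_sum, Finset.mul_sum]
  exact Finset.sum_congr rfl fun s _ => by ring

/-- isolated weights do not occur -/
theorem Rep2.exists_nb [Infinite k] {I : Type*} [Fintype I] [DecidableEq I] (A : Rep2 k I) (h2 : (2 : k) ≠ 0) {s : I}
    (hs : (A.n s : k) ≠ 0) : ∃ s', (A.E s' s ≠ 0 ∧ A.n s' = A.n s + 2) ∨ (A.F s' s ≠ 0 ∧ A.n s' = A.n s - 2) := by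
  by_contra hc
  simp only [not_exists, not_or, not_and] at hc
  have h1 := Rep2.f4 h2 hs (A.single_mem s 1) (funext fun a => by
    rw [mulVec_single_one]
    by_contra e
    exact (hc a).1 e (Rep2.E_wt e)) (funext fun a => by
    rw [mulVec_single_one]
    by_contra e
    exact (hc a).2 e (Rep2.F_wt e))
  exact one_ne_zero ((Pi.single_eq_same s 1).symm.trans (congrFun h1 s))

/-- the centraliser of a rational `SL₂` is orthogonal to its torus -/
theorem Std.orth [Infinite k] (X : Std k) {β : Kf.E} (h1 : X.Ξ w ∈ Pl k β) (h2 : X.Ξ w ∈ Pl k (-β)) : bf β (lE X.l) = 0 := by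
  obtain ⟨π, hπ⟩ := exists_perm (rho k) (X.Ξ w)
  have h3 := sum_form β (lE X.l)
  have h4 := h3
  rw [← Equiv.sum_comp π, Finset.sum_congr rfl (g := fun s => -(bf β (wv s) * bf (lE X.l) (wv s))) fun s _ => ?_,
    Finset.sum_neg_distrib, h4] at h3
  · linarith
  · have h5 := wrep_V.tri h1 _ _ (hπ s)
    have h6 := wrep_V.tri h2 _ _ (hπ s)
    have h7 := Rep2.w_wt (A := X.V) (hπ s)
    rw [map_neg, LinearMap.neg_apply, LinearMap.neg_apply, neg_le_neg_iff] at h6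
    rw [X.V_n, X.V_n] at h7
    rw [wv, wv, le_antisymm h6 h5, ← lev_cast, ← lev_cast, h7, Int.cast_neg, mul_neg]

/-- **commuting rational `SL₂`'s** -/
structure Fam (k : Type u) [Field k] (p : ℕ) (ι : Type) where
  X : ι → Std k
  prime : p.Prime
  char : CharP k p
  comm : ∀ i j, i ≠ j → ∀ x y, (X i).Ξ x * (X j).Ξ y = (X j).Ξ y * (X i).Ξ x
  conj : ∀ i j, ∃ v, lE (X j).l = wL v (lE (X i).l)
  pt : ∀ c, (∀ i, adM k c *ᵥ (X i).e = (X i).e) → (∀ i, adM k c *ᵥ (X i).f = (X i).f) → c ^ p = 1 → c = 1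
  irr : ∀ g β, (∀ i x, g⁻¹ * (X i).Ξ x * g ∈ Pl k β) → β = 0
  fixV : ∀ y, (∀ i x, rho k ((X i).Ξ x) *ᵥ y = y) → y = 0
  fixL : ∀ y, (∀ i x, adM k ((X i).Ξ x) *ᵥ y = y) → y = 0

namespace Fam

variable {p : ℕ} {ι : Type} (Y : Fam k p ι) [Infinite k]

theorem move_tw (X : Std k) (v : List (Fin 7)) (x : SpecialLinearGroup (Fin 2) k) :
    nL k v * X.Ξ x = (X.move v).Ξ x * nL k v := by rw [X.move_Ξ, inv_mul_cancel_right]

omit [Infinite k] in
theorem move_fix {I : Type*} [Fintype I] [DecidableEq I] (R : Gh k →* Matrix I I k) {n x : Gh k} {y : I → k}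
    (e : R (n * x * n⁻¹) *ᵥ y = y) : R x *ᵥ R n⁻¹ *ᵥ y = R n⁻¹ *ᵥ y := by
  conv_rhs => rw [← e, mulVec_mul, mulVec_mul, mulVec_inv]

/-- the conjugate under an element of the Weyl group -/
noncomputable def move (v : List (Fin 7)) : Fam k p ι where
  X i := (Y.X i).move v
  prime := Y.prime
  char := Y.char
  comm i j hij x y := by
    rw [Std.move_Ξ, Std.move_Ξ, conj_mul, conj_mul, Y.comm i j hij]
  conj i j := by
    obtain ⟨v', hv⟩ := Y.conj i j
    exact ⟨v ++ (v' ++ v.reverse), by rw [Std.move_l, Std.move_l, wL_append, wL_append, wL_rev, hv]⟩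
  pt c h1 h2 hc := by
    have h3 := Y.pt ((nL k v)⁻¹ * c * nL k v) (fun i => by
      rw [mulVec_mul, mulVec_mul, Std.tw_e (move_tw _ v), h1, ← Std.tw_e (move_tw _ v), mulVec_inv]) (fun i => by
      rw [mulVec_mul, mulVec_mul, Std.tw_f (move_tw _ v), h2, ← Std.tw_f (move_tw _ v), mulVec_inv]) (by
      rw [← inv_inv (nL k v), inv_inv (nL k v)⁻¹, conj_pow, hc, mul_one, mul_inv_cancel])
    rwa [← inv_inv (nL k v), inv_inv (nL k v)⁻¹, conj_eq_one_iff] at h3
  irr g β hβ := Y.irr ((nL k v)⁻¹ * g) β fun i x => by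
    have h1 := hβ i x
    rw [Std.move_Ξ] at h1
    rwa [_root_.mul_inv_rev, inv_inv, ← mul_assoc, mul_assoc g⁻¹, mul_assoc g⁻¹]
  fixV y hy := by
    rw [← mulVec_inv' (rho k) (nL k v) y, Y.fixV _ fun i x => move_fix _ (hy i x), mulVec_zero]
  fixL y hy := by
    rw [← mulVec_inv' (adM k) (nL k v) y, Y.fixL _ fun i x => move_fix _ (hy i x), mulVec_zero]

theorem move_l (v : List (Fin 7)) (i : ι) : lE ((Y.move v).X i).l = wL v (lE (Y.X i).l) := (Y.X i).move_l v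

omit [Infinite k] in
theorem norm (i j : ι) : bf (lE (Y.X i).l) (lE (Y.X i).l) = bf (lE (Y.X j).l) (lE (Y.X j).l) := by
  obtain ⟨v, hv⟩ := Y.conj i j
  rw [hv, wL_iso]

variable {Y}

theorem fix_sp {i j : ι} (hij : i ≠ j) (x : SpecialLinearGroup (Fin 2) k) : ∀ z ∈ (Y.X j).sp, adM k ((Y.X i).Ξ x) *ᵥ z = z :=
  Std.fix_sp (Std.tw_e (Y.comm i j hij x)) (Std.tw_f (Y.comm i j hij x))

theorem sp_le_Wt {i j : ι} (hij : i ≠ j) : (Y.X j).sp ≤ (Y.X i).L.Wt 0 := fun z hz =>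
  Rep2.mem_Wt_of_h fun c => by rw [zpow_zero, Units.val_one, one_smul]; exact fix_sp hij _ z hz

omit [Infinite k] in
theorem pt_Ul {β : Kf.E} {y : Gh k} (hy : y ∈ Ul k β) (h1 : ∀ i, ∀ z ∈ (Y.X i).sp, adM k y *ᵥ z = z) : y = 1 := by
  by_contra h0
  have := Y.char
  obtain ⟨n, h2, h3⟩ := Lb.exists_pow_p Y.prime hy h0
  have h4 : ∀ i, ∀ z ∈ (Y.X i).sp, adM k (y ^ n) *ᵥ z = z := fun i z hz => by
    induction n with
    | zero => rw [pow_zero, map_one, one_mulVec]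
    | succ n ih =>
      clear ih h2 h3
      induction n with
      | zero => rw [zero_add, pow_one, h1 i z hz]
      | succ n ih => rw [pow_succ, mulVec_mul, h1 i z hz, ih]
  exact h2 (Y.pt _ (fun i => h4 i _ (Y.X i).e_mem_sp) (fun i => h4 i _ (Y.X i).f_mem_sp) h3)

/-- a toral element which fixes the Lie algebra of the family centralises the family -/
theorem comm_of_fix {t : Fin chevE7.rank → kˣ} (ht : ∀ i, ∀ z ∈ (Y.X i).sp, adM k (Phi k t) *ᵥ z = z) (i : ι)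
    (x : SpecialLinearGroup (Fin 2) k) : (Y.X i).Ξ x * Phi k t = Phi k t * (Y.X i).Ξ x := by
  have key : ∀ β x, (Y.X i).Ξ x ∈ Ul k β → (Y.X i).Ξ x * Phi k t = Phi k t * (Y.X i).Ξ x := fun β x hx => by
    have h1 := pt_Ul (Y := Y) (mul_mem (Ul_conj (Phi_mem_Pl β t) hx) (inv_mem hx)) fun j z hz => by
      have h2 : adM k ((Y.X i).Ξ x)⁻¹ *ᵥ z ∈ (Y.X j).sp := by
        rw [← map_inv]
        by_cases e : i = j
        · exact e ▸ (Y.X i).sp_stab _ _ (e ▸ hz)
        · rwa [fix_sp e _ z hz]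
      rw [mulVec_mul, mulVec_mul, mulVec_mul, ← ht j _ h2, mulVec_inv, mulVec_inv', ht j z hz]
    rw [mul_inv_eq_one, mul_inv_eq_iff_eq_mul] at h1
    exact h1.symm
  exact mem_of_uv (T := (Subgroup.centralizer {Phi k t}).comap (Y.X i).Ξ)
    (fun s => Subgroup.mem_centralizer_singleton_iff.2 (key _ _ ((Y.X i).u_mem_Ul' s)))
    (fun s => Subgroup.mem_centralizer_singleton_iff.2 (key _ _ ((Y.X i).op.u_mem_Ul' (-s)))) x |>
    Subgroup.mem_centralizer_singleton_iff.1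

variable (Y) in
/-- **CENT**, for the supports -/
theorem cent0 {ν : Fin 7 → ℤ} (he : ∀ i (r : Fin chevE7.nroots), (Y.X i).e (Sum.inr r) ≠ 0 → lev ν (rc r) = 0)
    (hf : ∀ i (r : Fin chevE7.nroots), (Y.X i).f (Sum.inr r) ≠ 0 → lev ν (rc r) = 0) : ν = 0 := by
  have h1 : ∀ z i, ∀ y ∈ (Y.X i).sp, adM k (Phi k (lam ν z)) *ᵥ y = y := fun z i => by
    have key : ∀ y : chevE7.Idx → k, (∀ r : Fin chevE7.nroots, y (Sum.inr r) ≠ 0 → lev ν (rc r) = 0) →
        adM k (Phi k (lam ν z)) *ᵥ y = y := fun y hy => by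
      funext a
      rw [tor_lam wrep_L, mulVec_diagonal]
      by_cases e : y a = 0
      · rw [e, mul_zero]
      · rw [show lev ν (ac a) = 0 by
          rcases a with a | r
          · exact lev_zero _
          · exact hy r e, zpow_zero, Units.val_one, one_mul]
    exact Std.fix_sp (key _ (he i)) (key _ (hf i))
  refine nt_lE_inj ((Y.irr 1 _ fun i x => ?_).trans lE_zero.symm)
  rw [inv_one, one_mul, mul_one]
  exact (En1.Pl_of_hm (En1.hm_of_comm wrep_V fun z => comm_of_fix (h1 z) i x)).1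

variable (Y) in
/-- **CENT** -/
theorem cent {ν : Fin 7 → ℤ} (hν : ∀ i, ∀ r < 126, lev (Y.X i).l (rc r) = 2 → (∀ j, j ≠ i → lev (Y.X j).l (rc r) = 0) →
    lev ν (rc r) = 0) : ν = 0 := by
  refine Y.cent0 (fun i r ha => hν i r r.2 ((Y.X i).e_mem _ ha) fun j hj => sp_le_Wt hj (Y.X i).e_mem_sp _ ha)
    fun i r ha => ?_
  have h2 := hν i (125 - r) (by omega) (by
    rw [rc_neg r.2, lev_neg, neg_eq_iff_eq_neg]; exact (Y.X i).f_mem _ ha) fun j hj => by
    rw [rc_neg r.2, lev_neg, neg_eq_zero]; exact sp_le_Wt hj (Y.X i).f_mem_sp _ ha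
  rwa [rc_neg r.2, lev_neg, neg_eq_zero] at h2

variable (Y) in
/-- **CENT** for coweights -/
theorem cent' {ζ : Fin 7 → ℤ} (hζ : ∀ i, ∀ r < 126, lev (Y.X i).l (rc r) = 2 → (∀ j, j ≠ i → lev (Y.X j).l (rc r) = 0) →
    pc r ζ = 0) : ζ = 0 :=
  cw_eq_zero (Y.cent fun i r hr h1 h2 => by rw [lev_cw _ hr, hζ i r hr h1 h2, mul_zero])

variable (Y) in
/-- the labels of a dominant vector which is small on the supports -/
theorem lab_le {β : Kf.E} (hβ : Dom β) {d : ℝ} (hd : ∀ i, ∀ r < 126, lev (Y.X i).l (rc r) = 2 →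
    (∀ j, j ≠ i → lev (Y.X j).l (rc r) = 0) → |bf β (rv r)| ≤ d) (j : Fin 7) : β j ≤ d := by
  by_contra hc
  have h1 := Y.cent' (ζ := Pi.single j 1) fun i r hr h1 h2 => by
    have h3 := abs_le.1 (hd i r hr h1 h2)
    rw [pc, Finset.sum_eq_single j (fun b _ hb => by rw [Pi.single_eq_of_ne hb, mul_zero])
      (fun e => absurd (Finset.mem_univ _) e), Pi.single_eq_same, mul_one]
    rw [bf_rv _ hr] at h3
    by_contra h0
    by_cases h63 : 63 ≤ r
    · have h4 := (chk_pos r hr).2.1 h63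
      have h5 := Finset.single_le_sum (f := fun i : Fin 7 => β i * (rt chevE7 r i : ℝ))
        (fun i _ => mul_nonneg (hβ i) (by exact_mod_cast h4 i i.2)) (Finset.mem_univ j)
      have h6 : (1 : ℝ) ≤ rt chevE7 r j := by exact_mod_cast (by have := h4 j j.2; omega)
      nlinarith [hβ j]
    · have h4 := (chk_pos r hr).2.2 (by omega)
      have h5 := Finset.single_le_sum (f := fun i : Fin 7 => -(β i * (rt chevE7 r i : ℝ)))
        (fun i _ => neg_nonneg.2 (mul_nonpos_of_nonneg_of_nonpos (hβ i) (by exact_mod_cast h4 i i.2))) (Finset.mem_univ j)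
      have h6 : (rt chevE7 r j : ℝ) ≤ -1 := by exact_mod_cast (by have := h4 j j.2; omega)
      rw [Finset.sum_neg_distrib] at h5
      nlinarith [hβ j]
  have h2 := congrFun h1 j
  rw [Pi.single_eq_same] at h2
  exact one_ne_zero h2

variable (Y) in
theorem lab_le_two {i : ι} (hi : Dom (lE (Y.X i).l)) (j : Fin 7) : lev (Y.X i).l (rc (chevE7.simple j)) ≤ 2 := by
  have h1 := Y.lab_le hi (d := 2) (fun a r _ h1 h2 => by
    rw [rv, ← lev_cast]
    by_cases e : i = a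
    · rw [e, h1]; norm_num
    · rw [h2 i e]; norm_num) j
  rw [← lev_simple] at h1
  exact_mod_cast h1

section
variable {I : Type*} [Fintype I] [DecidableEq I] (A : ι → Rep2 k I)
  (hA : ∀ i j, i ≠ j → ∀ x y, (A i).R x * (A j).R y = (A j).R y * (A i).R x)
include hA

theorem E_keep {i j : ι} (hij : i ≠ j) {a b : I} (e : (A i).E a b ≠ 0) : (A j).n a = (A j).n b :=
  Rep2.wt_of_comm (fun z => (Rep2.comm_E fun x => hA j i hij.symm (h z) x).symm) e

theorem F_keep {i j : ι} (hij : i ≠ j) {a b : I} (e : (A i).F a b ≠ 0) : (A j).n a = (A j).n b :=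
  Rep2.wt_of_comm (fun z => (Rep2.comm_F fun x => hA j i hij.symm (h z) x).symm) e

theorem exists_nb (h2 : (2 : k) ≠ 0) {i : ι} {s : I} (hs : ((A i).n s : k) ≠ 0) :
    ∃ s', (∀ j, j ≠ i → (A j).n s' = (A j).n s) ∧ ((A i).n s' = (A i).n s + 2 ∨ (A i).n s' = (A i).n s - 2) := by
  obtain ⟨s', h1 | h1⟩ := (A i).exists_nb h2 hs
  · exact ⟨s', fun j hj => E_keep A hA hj.symm h1.1, Or.inl h1.2⟩
  · exact ⟨s', fun j hj => F_keep A hA hj.symm h1.1, Or.inr h1.2⟩

end

variable (Y)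

omit [Infinite k] in
theorem comm_V (i j : ι) (hij : i ≠ j) (x y : SpecialLinearGroup (Fin 2) k) :
    (Y.X i).V.R x * (Y.X j).V.R y = (Y.X j).V.R y * (Y.X i).V.R x := Std.tw_R (Y.comm i j hij x) (rho k) y

omit [Infinite k] in
theorem comm_L (i j : ι) (hij : i ≠ j) (x y : SpecialLinearGroup (Fin 2) k) :
    (Y.X i).L.R x * (Y.X j).L.R y = (Y.X j).L.R y * (Y.X i).L.R x := Std.tw_R (Y.comm i j hij x) (adM k) y

/-- isolated weights of `V` -/
theorem zV {i : ι} {s : D1} (hs : (lev (Y.X i).l (wc s) : k) ≠ 0) :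
    ∃ s', (∀ j, j ≠ i → lev (Y.X j).l (wc s') = lev (Y.X j).l (wc s)) ∧
      (lev (Y.X i).l (wc s') = lev (Y.X i).l (wc s) + 2 ∨ lev (Y.X i).l (wc s') = lev (Y.X i).l (wc s) - 2) :=
  exists_nb (fun i => (Y.X i).V) Y.comm_V (Y.X i).two hs

/-- isolated weights of `g` -/
theorem zL {i : ι} {s : chevE7.Idx} (hs : (lev (Y.X i).l (ac s) : k) ≠ 0) :
    ∃ s', (∀ j, j ≠ i → lev (Y.X j).l (ac s') = lev (Y.X j).l (ac s)) ∧
      (lev (Y.X i).l (ac s') = lev (Y.X i).l (ac s) + 2 ∨ lev (Y.X i).l (ac s') = lev (Y.X i).l (ac s) - 2) :=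
  exists_nb (fun i => (Y.X i).L) Y.comm_L (Y.X i).two hs

theorem mem_Pl {i j : ι} (hij : i ≠ j) (x : SpecialLinearGroup (Fin 2) k) :
    (Y.X j).Ξ x ∈ Pl k (lE (Y.X i).l) ∧ (Y.X j).Ξ x ∈ Pl k (-lE (Y.X i).l) :=
  En1.Pl_of_hm (En1.hm_of_comm wrep_V fun z => by rw [← (Y.X i).tor, Y.comm i j hij])

theorem orth {i j : ι} (hij : i ≠ j) : bf (lE (Y.X i).l) (lE (Y.X j).l) = 0 :=
  (Y.X j).orth (Y.mem_Pl hij w).1 (Y.mem_Pl hij w).2

/-- the other cocharacters lie in the derived subgroup of the Levi subgroup -/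
theorem coord_eq_zero {i j : ι} (hij : i ≠ j) (hi : Dom (lE (Y.X i).l)) {a : Fin 7} (ha : lE (Y.X i).l a ≠ 0) :
    (Y.X j).l a = 0 := by
  have h0 : Dom (cv (Pi.single a 1)) := fun b => by
    rw [cv, Int.cast_nonneg_iff]
    by_cases e : b = a
    · rw [e, Pi.single_eq_same]
      exact zero_le_one
    · rw [Pi.single_eq_of_ne e]
  have h1 : ∀ b, lE (Y.X i).l b = 0 → cv (Pi.single a 1) b = 0 := fun b hb => by
    rw [cv, Pi.single_eq_of_ne fun e : b = a => ha (e ▸ hb), Int.cast_zero]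
  have h2 := (Y.X j).orth (Pl_le_of_supp hi h0 h1 (Y.mem_Pl hij w).1) (Pl_mono (fun r hr h3 => ?_) (Y.mem_Pl hij w).2)
  · rw [bf_symm, bf_lE, Finset.sum_eq_single a (fun b _ hb => by rw [Pi.single_eq_of_ne hb, zero_mul])
      (fun e => absurd (Finset.mem_univ _) e), Pi.single_eq_same, one_mul] at h2
    exact_mod_cast h2
  · rw [map_neg, LinearMap.neg_apply, neg_nonneg] at h3 ⊢
    by_cases h63 : 63 ≤ r
    · rw [bf_rv _ hr] at h3 ⊢
      have h4 := (chk_pos r hr).2.1 h63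
      have h5 := (Finset.sum_eq_zero_iff_of_nonneg fun b _ => mul_nonneg (hi b) (by exact_mod_cast h4 b b.2)).1
        (le_antisymm h3 (Finset.sum_nonneg fun b _ => mul_nonneg (hi b) (by exact_mod_cast h4 b b.2)))
      refine (Finset.sum_eq_zero fun b _ => ?_).le
      rcases mul_eq_zero.1 (h5 b (Finset.mem_univ _)) with e | e
      · rw [h1 b e, zero_mul]
      · rw [e, mul_zero]
    · exact h0.neg (by omega)

end Fam

end Cfsg.Agent.E7P.Rsl
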