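import Cfsg.Agent.E7P.Kf.Par
import Cfsg.Agent.H943.SL2Rel

/-!
# S5932: rational representations of `SL₂(k)` (helper61)

* `Rep2 k I` : a representation on `I → k` with diagonal torus and polynomial root group;
* `D m`, `E`, `F`, `H`, `op`; `D_wt`, `D_mul_D`, `E_pow`, `EF`, `DF`, `u_E`, `u_H`, `u_F`, `w_E`, `w_H`, `w_F`;
* `Wt j` : the weight spaces; `fix_u`, `fix_all`; `exists_perm`; `cas`, `f4`.
-/

set_option autoImplicit false

namespace Cfsg.Agent.E7P.Rsl

open Matrix Polynomial Module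
open Cfsg.Agent.H943.SL2Rel (u w h)

section
variable {k : Type*} [Field k]

/-- the opposite root group -/
def v (s : k) : SpecialLinearGroup (Fin 2) k := w * u (-s) * w⁻¹

theorem v_val (s : k) : (v s).1 = !![1, 0; s, 1] := by
  let x : SpecialLinearGroup (Fin 2) k := ⟨!![1, 0; s, 1], by simp [Matrix.det_fin_two]⟩
  have h1 : v s * w = w * u (-s) := inv_mul_cancel_right _ _
  have h2 : x * w = w * u (-s) := by
    refine Subtype.ext ?_
    show !![1, 0; s, 1] * !![0, 1; -1, 0] = !![0, 1; -1, 0] * !![1, -s; 0, 1]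
    simp
  rw [mul_right_cancel (h1.trans h2.symm)]

theorem u_v (y : kˣ) {s t : k} (e : (y : k) ^ 2 = 1 + s * t) : u t * v s = h y * (v s * u t) * h y := by
  refine Subtype.ext ?_
  show (u t).1 * (v s).1 = (h y).1 * ((v s).1 * (u t).1) * (h y).1
  rw [v_val]
  show !![1, t; 0, 1] * !![1, 0; s, 1] =
    !![(y : k), 0; 0, (y : k)⁻¹] * (!![1, 0; s, 1] * !![1, t; 0, 1]) * !![(y : k), 0; 0, (y : k)⁻¹]
  have hy : (y : k) ≠ 0 := y.ne_zero
  simp only [Matrix.mul_fin_two]
  ext i j
  fin_cases i <;> fin_cases j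
  · simp
    linear_combination -e
  · simp
    field_simp
  · simp
    field_simp
  · simp
    field_simp
    linear_combination e

theorem w_eq : (w : SpecialLinearGroup (Fin 2) k) = u 1 * v (-1) * u 1 := by
  refine Subtype.ext ?_
  show _ = (u (1 : k)).1 * (v (-1 : k)).1 * (u (1 : k)).1
  rw [v_val]
  show !![(0 : k), 1; -1, 0] = !![1, 1; 0, 1] * !![1, 0; -1, 1] * !![1, 1; 0, 1]
  simp

theorem w_h (z : kˣ) : w * h z * w⁻¹ = h z⁻¹ := by
  rw [mul_inv_eq_iff_eq_mul, H943.SL2Rel.h_w, inv_inv]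

/-- `SL₂(k)` is generated by the two root groups -/
theorem mem_of_uv {T : Subgroup (SpecialLinearGroup (Fin 2) k)} (hu : ∀ t, u t ∈ T) (hv : ∀ s, v s ∈ T)
    (x : SpecialLinearGroup (Fin 2) k) : x ∈ T := by
  have hw : w ∈ T := by
    rw [w_eq]
    exact mul_mem (mul_mem (hu _) (hv _)) (hu _)
  refine H943.SL2Rel.induct (P := fun x => x ∈ T) hu (fun a => ?_) hw (fun _ _ => mul_mem) x
  have h0 : -(a : k)⁻¹ ≠ 0 := neg_ne_zero.2 (inv_ne_zero a.ne_zero)
  have h1 := H943.SL2Rel.w_u_w _ h0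
  have h2 : H943.SL2Rel.mi _ h0 = a := Units.ext (by simp [H943.SL2Rel.mi])
  rw [h2] at h1
  have h3 := mul_mem (mul_mem hw (hu (-(a : k)⁻¹))) hw
  rw [h1, mul_mem_cancel_right (hu _), mul_mem_cancel_right hw, mul_mem_cancel_left (hu _)] at h3
  exact h3

theorem map_u {K : Type*} [Field K] (f : K →+* k) (t : K) : SpecialLinearGroup.map f (u t) = u (f t) := by
  refine Subtype.ext ?_
  show (!![1, t; 0, 1] : Matrix (Fin 2) (Fin 2) K).map f = !![1, f t; 0, 1]
  ext i j
  fin_cases i <;> fin_cases j <;> simp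

theorem map_w {K : Type*} [Field K] (f : K →+* k) : SpecialLinearGroup.map f (w : SpecialLinearGroup (Fin 2) K) = w := by
  refine Subtype.ext ?_
  show (!![0, 1; -1, 0] : Matrix (Fin 2) (Fin 2) K).map f = !![0, 1; -1, 0]
  ext i j
  fin_cases i <;> fin_cases j <;> simp

theorem map_h {K : Type*} [Field K] (f : K →+* k) (z : Kˣ) :
    SpecialLinearGroup.map f (h z) = h (Units.map (f : K →* k) z) := by
  refine Subtype.ext ?_
  show (!![(z : K), 0; 0, (z : K)⁻¹] : Matrix (Fin 2) (Fin 2) K).map f = !![f z, 0; 0, (f z)⁻¹]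
  ext i j
  fin_cases i <;> fin_cases j <;> simp

/-- the derivative at `1` of a Laurent identity -/
theorem der [Infinite k] {p q : k[X]} {κ : ℤ} (e : ∀ y : kˣ, p.eval (y : k) = ((y ^ κ : kˣ) : k) * q.eval (y : k)) :
    p.derivative.eval 1 = κ * q.eval 1 + q.derivative.eval 1 := by
  obtain ⟨a, b, rfl⟩ : ∃ a b : ℕ, κ = b - a := ⟨_, _, (Int.toNat_sub_toNat_neg κ).symm⟩
  have h1 : X ^ a * p = X ^ b * q := by
    refine eq_of_infinite_eval_eq _ _ ((Set.finite_singleton (0 : k)).infinite_compl.mono fun y hy => ?_)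
    have hy' : y ≠ 0 := hy
    have h2 := e (Units.mk0 y hy')
    rw [Units.val_zpow_eq_zpow_val, Units.val_mk0, zpow_sub₀ hy', zpow_natCast, zpow_natCast] at h2
    show eval y _ = eval y _
    rw [eval_mul, eval_mul, eval_pow, eval_pow, eval_X, h2]
    field_simp
  have h2 := congrArg (fun r => eval 1 (derivative r)) h1
  have h3 := e 1
  simp only [derivative_mul, derivative_X_pow, eval_add, eval_mul, eval_C, eval_pow, eval_X, one_pow, mul_one,
    one_mul] at h2
  simp only [_root_.one_zpow, Units.val_one, one_mul] at h3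
  push_cast
  linear_combination h2 - a * h3

variable {I : Type*}

/-- the coefficients of a polynomial matrix -/
def co (m : ℕ) (M : Matrix I I k[X]) : Matrix I I k := M.map fun p => p.coeff m

theorem co_ext {M N : Matrix I I k[X]} (e : ∀ m, co m M = co m N) : M = N := by
  ext i j m
  exact congrFun (congrFun (e m) i) j

theorem ev_ext [Infinite k] {M N : Matrix I I k[X]} (e : ∀ t, M.map (eval t) = N.map (eval t)) : M = N := by
  funext i j
  exact Polynomial.funext fun t => congrFun (congrFun (e t) i) j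

theorem co_add (m : ℕ) (M N : Matrix I I k[X]) : co m (M + N) = co m M + co m N := by
  ext i j
  exact coeff_add _ _ _

theorem co_sub (m : ℕ) (M N : Matrix I I k[X]) : co m (M - N) = co m M - co m N := by
  ext i j
  exact coeff_sub _ _ _

theorem co_X (m : ℕ) (M : Matrix I I k[X]) : co (m + 1) ((X : k[X]) • M) = co m M := by
  ext i j
  exact coeff_X_mul _ _

theorem co_X_zero (M : Matrix I I k[X]) : co 0 ((X : k[X]) • M) = 0 := by
  ext i j
  exact coeff_X_mul_zero _

theorem ev_add (t : k) (M N : Matrix I I k[X]) : (M + N).map (eval t) = M.map (eval t) + N.map (eval t) := by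
  ext i j
  exact eval_add

theorem ev_sub (t : k) (M N : Matrix I I k[X]) : (M - N).map (eval t) = M.map (eval t) - N.map (eval t) := by
  ext i j
  exact eval_sub _ _ _

theorem ev_X (t : k) (M : Matrix I I k[X]) : ((X : k[X]) • M).map (eval t) = t • M.map (eval t) := by
  ext i j
  show eval t (X * M i j) = t * eval t (M i j)
  rw [eval_mul, eval_X]

theorem ev_C (t : k) (B : Matrix I I k) : (B.map C).map (eval t) = B := by
  ext i j
  exact eval_C

variable [Fintype I]

theorem co_mul_C (m : ℕ) (M : Matrix I I k[X]) (B : Matrix I I k) : co m (M * B.map C) = co m M * B := by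
  ext i j
  simp only [co, map_apply, mul_apply, finsetSum_coeff, coeff_mul_C]

theorem co_C_mul (m : ℕ) (M : Matrix I I k[X]) (B : Matrix I I k) : co m (B.map C * M) = B * co m M := by
  ext i j
  simp only [co, map_apply, mul_apply, finsetSum_coeff, coeff_C_mul]

theorem ev_mul (t : k) (M N : Matrix I I k[X]) : (M * N).map (eval t) = M.map (eval t) * N.map (eval t) :=
  Matrix.map_mul (f := evalRingHom t)

variable [DecidableEq I]

/-- a non-zero term of the determinant -/
theorem exists_perm {G : Type*} [Group G] (R : G →* Matrix I I k) (g : G) : ∃ π : Equiv.Perm I, ∀ j, R g (π j) j ≠ 0 := by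
  have h1 : det (R g) ≠ 0 := fun e => by
    have h2 := congrArg det (map_mul R g g⁻¹)
    rw [mul_inv_cancel, map_one, det_one, det_mul, e, zero_mul] at h2
    exact one_ne_zero h2
  rw [det_apply] at h1
  obtain ⟨π, -, hπ⟩ := Finset.exists_ne_zero_of_sum_ne_zero h1
  refine ⟨π, fun j e => hπ ?_⟩
  rw [Finset.prod_eq_zero (f := fun i => R g (π i) i) (Finset.mem_univ j) e, smul_zero]

end

/-- **CAS** -/
theorem cas {k M P N : Type*} [Field k] [AddCommGroup M] [Module k M] [AddCommGroup P] [Module k P] [AddCommGroup N]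
    [Module k N] [FiniteDimensional k M] [FiniteDimensional k P] [FiniteDimensional k N]
    (A : M →ₗ[k] P) (B : M →ₗ[k] N) (C : P →ₗ[k] M) (D : N →ₗ[k] M) (h1 : ∀ x, C (A x) = D (B x))
    (h2 : ∀ x, A x = 0 → B x = 0 → x = 0) (h3 : ∀ x, ∃ y z, x = C y + D z) :
    2 * finrank k M ≤ finrank k P + finrank k N := by
  have h4 : Function.Injective (A.prod B) := (injective_iff_map_eq_zero _).2 fun x hx =>
    h2 x (congrArg Prod.fst hx) (congrArg Prod.snd hx)
  have h5 : LinearMap.range (C.coprod (-D)) = ⊤ := LinearMap.range_eq_top.2 fun x => by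
    obtain ⟨y, z, e⟩ := h3 x
    exact ⟨(y, -z), by simp [e]⟩
  have h6 : LinearMap.range (A.prod B) ≤ LinearMap.ker (C.coprod (-D)) := by
    rintro _ ⟨x, rfl⟩
    simp [h1]
  have h7 := LinearMap.finrank_range_add_finrank_ker (C.coprod (-D))
  have h8 := Submodule.finrank_mono h6
  rw [LinearMap.finrank_range_of_inj h4] at h8
  rw [h5, finrank_top, Module.finrank_prod] at h7
  omega

/-- **rational representations of `SL₂(k)`** -/
structure Rep2 (k : Type*) [Field k] (I : Type*) [Fintype I] [DecidableEq I] where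
  R : SpecialLinearGroup (Fin 2) k →* Matrix I I k
  n : I → ℤ
  tor : ∀ z, R (h z) = diagonal fun i => ((z ^ n i : kˣ) : k)
  P : Matrix I I k[X]
  ev : ∀ t, R (u t) = P.map (eval t)

namespace Rep2

variable {k : Type*} [Field k] {I : Type*} [Fintype I] [DecidableEq I] (A : Rep2 k I)

/-- the divided powers -/
def D (m : ℕ) : Matrix I I k := co m A.P

/-- the raising operator -/
def E : Matrix I I k := A.D 1

/-- the lowering operator -/
def F : Matrix I I k := - (A.R w * A.E * A.R w⁻¹)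

/-- the toral operator -/
def H : Matrix I I k := diagonal fun i => (A.n i : k)

/-- the representation twisted by `w` -/
noncomputable def op : Rep2 k I where
  R := A.R.comp (MulAut.conj w).toMonoidHom
  n i := - A.n i
  tor z := by
    show A.R (w * h z * w⁻¹) = _
    rw [w_h, A.tor]
    simp only [_root_.zpow_neg, _root_.inv_zpow]
  P := (A.R w).map C * A.P * (A.R w⁻¹).map C
  ev t := by
    show A.R (w * u t * w⁻¹) = _
    rw [map_mul, map_mul, ev_mul, ev_mul, ev_C, ev_C, A.ev]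

theorem op_R (x : SpecialLinearGroup (Fin 2) k) : A.op.R x = A.R (w * x * w⁻¹) := rfl

theorem op_n (i : I) : A.op.n i = - A.n i := rfl

theorem R_v (s : k) : A.R (v s) = A.op.R (u (-s)) := rfl

theorem op_D (m : ℕ) : A.op.D m = A.R w * A.D m * A.R w⁻¹ := by
  show co m (_ * _ * _) = _
  rw [co_mul_C, co_C_mul, D]

theorem op_E : A.op.E = - A.F := by rw [F, neg_neg, E, op_D, E]

theorem op_H : A.op.H = - A.H := by
  ext i j
  by_cases e : i = j <;> simp [H, op_n, e]

theorem op_w : A.op.R w = A.R w := by rw [op_R, mul_inv_cancel_right]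

theorem R_mul_inv (x : SpecialLinearGroup (Fin 2) k) : A.R x * A.R x⁻¹ = 1 := by rw [← map_mul, mul_inv_cancel, map_one]

theorem R_inv_mul (x : SpecialLinearGroup (Fin 2) k) : A.R x⁻¹ * A.R x = 1 := by rw [← map_mul, inv_mul_cancel, map_one]

theorem D_zero : A.D 0 = 1 := by
  rw [← map_one A.R, ← H943.SL2Rel.u_zero, A.ev]
  ext i j
  exact coeff_zero_eq_eval_zero _

theorem exists_bound : ∃ N, ∀ m, N ≤ m → A.D m = 0 := by
  refine ⟨(Finset.univ.sup fun x : I × I => (A.P x.1 x.2).natDegree) + 1, fun m hm => ?_⟩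
  ext i j
  exact coeff_eq_zero_of_natDegree_lt (lt_of_le_of_lt
    (Finset.le_sup (f := fun x : I × I => (A.P x.1 x.2).natDegree) (Finset.mem_univ (i, j))) hm)

theorem R_u_eq {N : ℕ} (hN : ∀ m, N ≤ m → A.D m = 0) (t : k) : A.R (u t) = ∑ m ∈ Finset.range N, t ^ m • A.D m := by
  rw [A.ev]
  ext i j
  rw [map_apply, Matrix.sum_apply, eval_eq_sum_degreeLTEquiv (n := N) ((mem_degreeLT).2 ((degree_lt_iff_coeff_zero _ _).2
    fun m hm => congrFun (congrFun (hN m hm) i) j)), Finset.sum_range]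
  exact Finset.sum_congr rfl fun m _ => mul_comm _ _

/-- the vectors of weight `j` -/
def Wt (j : ℤ) : Submodule k (I → k) where
  carrier := {x | ∀ i, x i ≠ 0 → A.n i = j}
  zero_mem' := fun _ h => absurd rfl h
  add_mem' := by
    intro x y hx hy i hi
    by_cases e : x i = 0
    · rw [Pi.add_apply, e, zero_add] at hi
      exact hy i hi
    · exact hx i e
  smul_mem' := fun _ _ hx i hi => hx i (right_ne_zero_of_mul hi)

theorem mem_Wt {j : ℤ} {x : I → k} : x ∈ A.Wt j ↔ ∀ i, x i ≠ 0 → A.n i = j := Iff.rfl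

theorem op_Wt {j : ℤ} {x : I → k} : x ∈ A.op.Wt (-j) ↔ x ∈ A.Wt j :=
  forall_congr' fun _ => imp_congr_right fun _ => _root_.neg_inj

theorem single_mem (i : I) (c : k) : Pi.single i c ∈ A.Wt (A.n i) := fun j hj => by
  by_cases e : j = i
  · rw [e]
  · exact absurd (Pi.single_eq_of_ne (M := fun _ => k) e c) hj

variable {A} in
theorem H_mulVec {j : ℤ} {x : I → k} (hx : x ∈ A.Wt j) : A.H *ᵥ x = (j : k) • x := by
  funext i
  rw [H, mulVec_diagonal, Pi.smul_apply, smul_eq_mul]
  by_cases e : x i = 0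
  · rw [e, mul_zero, mul_zero]
  · rw [hx i e]

variable {A} in
theorem h_mulVec {j : ℤ} {x : I → k} (hx : x ∈ A.Wt j) (z : kˣ) : A.R (h z) *ᵥ x = ((z ^ j : kˣ) : k) • x := by
  funext i
  rw [A.tor, mulVec_diagonal, Pi.smul_apply, smul_eq_mul]
  by_cases e : x i = 0
  · rw [e, mul_zero, mul_zero]
  · rw [hx i e]

variable {A} in
theorem mulVec_mem {B : Matrix I I k} {d j : ℤ} (hB : ∀ a b, B a b ≠ 0 → A.n a = A.n b + d) {x : I → k}
    (hx : x ∈ A.Wt j) : B *ᵥ x ∈ A.Wt (j + d) := fun i hi => by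
  obtain ⟨a, h1, h2⟩ := Kf.exists_col hi
  rw [hB i a h1, hx a h2]

theorem finrank_Wt (j : ℤ) : finrank k (A.Wt j) = (Finset.univ.filter fun i => A.n i = j).card := by
  have h1 : A.Wt j = Submodule.span k (Set.range fun i : {i // A.n i = j} => (Pi.single i.1 1 : I → k)) := by
    refine le_antisymm (fun x hx => ?_) (Submodule.span_le.2 ?_)
    · rw [pi_eq_sum_univ' x]
      refine Submodule.sum_mem _ fun i _ => ?_
      by_cases e : x i = 0
      · rw [e, zero_smul]
        exact zero_mem _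
      · exact Submodule.smul_mem _ _ (Submodule.subset_span ⟨⟨i, hx i e⟩, rfl⟩)
    · rintro _ ⟨⟨i, rfl⟩, rfl⟩
      exact A.single_mem i 1
  have h2 := (Pi.basisFun k I).linearIndependent.comp (Subtype.val : {i // A.n i = j} → I) Subtype.val_injective
  have h3 : (Pi.basisFun k I) ∘ (Subtype.val : {i // A.n i = j} → I) = fun i => Pi.single i.1 1 :=
    funext fun i => Pi.basisFun_apply k I i.1
  rw [h3] at h2
  rw [h1, finrank_span_eq_card h2, Fintype.card_subtype]

variable {A} in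
theorem fix_u {x : I → k} (hx : ∀ m, 0 < m → A.D m *ᵥ x = 0) (t : k) : A.R (u t) *ᵥ x = x := by
  obtain ⟨N, hN⟩ := A.exists_bound
  rw [A.R_u_eq (N := N + 1) fun m hm => hN m (by omega), Matrix.sum_mulVec, Finset.sum_range_succ',
    Finset.sum_eq_zero fun m _ => by rw [smul_mulVec, hx _ m.succ_pos, smul_zero], zero_add, pow_zero, one_smul, D_zero,
    one_mulVec]

variable {A} in
theorem fix_of_uv {x : I → k} (hu : ∀ t, A.R (u t) *ᵥ x = x) (hv : ∀ t, A.op.R (u t) *ᵥ x = x)
    (g : SpecialLinearGroup (Fin 2) k) : A.R g *ᵥ x = x :=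
  mem_of_uv (T :=
    { carrier := {g | A.R g *ᵥ x = x}
      one_mem' := by
        show A.R 1 *ᵥ x = x
        rw [map_one, one_mulVec]
      mul_mem' := fun {a b} ha hb => by
        show A.R (a * b) *ᵥ x = x
        rw [map_mul, ← mulVec_mulVec, hb, ha]
      inv_mem' := fun {a} ha => by
        show A.R a⁻¹ *ᵥ x = x
        conv_lhs => rw [← ha, mulVec_mulVec, R_inv_mul, one_mulVec] }) hu (fun s => hv (-s)) g

variable {A} in
theorem fix_all {x : I → k} (hx : ∀ m, 0 < m → A.D m *ᵥ x = 0) (hx' : ∀ m, 0 < m → A.op.D m *ᵥ x = 0)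
    (g : SpecialLinearGroup (Fin 2) k) : A.R g *ᵥ x = x := fix_of_uv (fix_u hx) (fix_u hx') g

variable [Infinite k]

theorem eq_of_zpow {a b : ℤ} (e : ∀ z : kˣ, z ^ a = z ^ b) : a = b := by
  by_contra hne
  obtain ⟨z, hz⟩ := Kf.exists_zpow_ne (K := k) (sub_ne_zero.2 hne)
  exact hz (by rw [_root_.zpow_sub, e, mul_inv_cancel])

variable {A} in
theorem mem_Wt_of_h {j : ℤ} {x : I → k} (hx : ∀ z : kˣ, A.R (h z) *ᵥ x = ((z ^ j : kˣ) : k) • x) : x ∈ A.Wt j := by
  intro i hi
  refine eq_of_zpow (k := k) fun z => Units.ext (mul_right_cancel₀ hi ?_)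
  have h1 := congrFun (hx z) i
  rwa [A.tor, mulVec_diagonal] at h1

variable {A} in
/-- intertwiners of two torus actions -/
theorem wt_of_tw {A' : Rep2 k I} {B : Matrix I I k} {d : ℤ}
    (e : ∀ z, A.R (h z) * B = ((z ^ d : kˣ) : k) • (B * A'.R (h z))) {i j : I} (hB : B i j ≠ 0) : A.n i = A'.n j + d := by
  refine eq_of_zpow (k := k) fun z => Units.ext (mul_right_cancel₀ hB ?_)
  have h1 := congrFun (congrFun (e z) i) j
  rw [A.tor, A'.tor, diagonal_mul, Matrix.smul_apply, mul_diagonal, smul_eq_mul] at h1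
  rw [h1, _root_.zpow_add, Units.val_mul]
  ring

variable {A} in
theorem wt_of_comm {B : Matrix I I k} (e : ∀ z, B * A.R (h z) = A.R (h z) * B) {i j : I} (hB : B i j ≠ 0) :
    A.n i = A.n j :=
  (wt_of_tw (d := 0) (fun z => by rw [zpow_zero, Units.val_one, one_smul, e]) hB).trans (add_zero _)

theorem h_D (z : kˣ) (m : ℕ) : A.R (h z) * A.D m = ((z ^ (2 * m : ℤ) : kˣ) : k) • (A.D m * A.R (h z)) := by
  have h1 : (A.R (h z)).map C * A.P = A.P.map (fun p => p.comp (C ((z : k) ^ 2) * X)) * (A.R (h z)).map C :=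
    ev_ext fun t => by
      rw [ev_mul, ev_mul, ev_C, ← A.ev, ← map_mul, H943.SL2Rel.h_u, map_mul, A.ev]
      congr 1
      ext i j
      simp only [map_apply, eval_comp, eval_mul, eval_C, eval_X]
  have h2 := congrArg (co m) h1
  rw [co_C_mul, co_mul_C] at h2
  rw [D, h2, ← smul_mul_assoc]
  congr 1
  ext i j
  simp only [co, map_apply, comp_C_mul_X_coeff, Matrix.smul_apply, smul_eq_mul]
  rw [mul_comm, ← pow_mul, Units.val_zpow_eq_zpow_val, ← zpow_natCast]
  push_cast
  rfl

variable {A} in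
theorem D_wt {m : ℕ} {i j : I} (e : A.D m i j ≠ 0) : A.n i = A.n j + 2 * m := wt_of_tw (fun z => A.h_D z m) e

variable {A} in
theorem E_wt {i j : I} (e : A.E i j ≠ 0) : A.n i = A.n j + 2 := D_wt e

variable {A} in
theorem opD_wt {m : ℕ} {i j : I} (e : A.op.D m i j ≠ 0) : A.n i = A.n j + -(2 * m) := by
  have h1 := D_wt e
  rw [op_n, op_n] at h1
  omega

variable {A} in
theorem F_wt {i j : I} (e : A.F i j ≠ 0) : A.n i = A.n j + -2 :=
  opD_wt (m := 1) (show A.op.E i j ≠ 0 by rw [op_E]; exact neg_ne_zero.2 e)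

variable {A} in
theorem w_wt {i j : I} (e : A.R w i j ≠ 0) : A.n i = - A.n j :=
  (wt_of_tw (A' := A.op) (d := 0) (fun z => by
    rw [zpow_zero, Units.val_one, one_smul, op_R, w_h, ← map_mul, ← map_mul, H943.SL2Rel.h_w]) e).trans (add_zero _)

variable {A} in
theorem D_mem {j : ℤ} {x : I → k} (hx : x ∈ A.Wt j) (m : ℕ) : A.D m *ᵥ x ∈ A.Wt (j + 2 * m) :=
  mulVec_mem (fun _ _ => D_wt) hx

variable {A} in
theorem E_mem {j : ℤ} {x : I → k} (hx : x ∈ A.Wt j) : A.E *ᵥ x ∈ A.Wt (j + 2) := mulVec_mem (fun _ _ => E_wt) hx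

variable {A} in
theorem F_mem {j : ℤ} {x : I → k} (hx : x ∈ A.Wt j) : A.F *ᵥ x ∈ A.Wt (j - 2) := mulVec_mem (fun _ _ => F_wt) hx

variable {A} in
theorem opD_mem {j : ℤ} {x : I → k} (hx : x ∈ A.Wt j) (m : ℕ) : A.op.D m *ᵥ x ∈ A.Wt (j - 2 * m) :=
  mulVec_mem (fun _ _ => opD_wt) hx

variable {A} in
theorem w_mem {j : ℤ} {x : I → k} (hx : x ∈ A.Wt j) : A.R w *ᵥ x ∈ A.Wt (-j) := fun i hi => by
  obtain ⟨a, h1, h2⟩ := Kf.exists_col hi
  rw [w_wt h1, hx a h2]

variable {A} in
theorem comm_D' {A' : Rep2 k I} {B : Matrix I I k} (e : ∀ t, B * A.R (u t) = A'.R (u t) * B) (m : ℕ) :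
    B * A.D m = A'.D m * B := by
  have h1 : B.map C * A.P = A'.P * B.map C := ev_ext fun t => by rw [ev_mul, ev_mul, ev_C, ← A.ev, ← A'.ev, e]
  have h2 := congrArg (co m) h1
  rwa [co_C_mul, co_mul_C] at h2

variable {A} in
theorem comm_D {B : Matrix I I k} (e : ∀ t, B * A.R (u t) = A.R (u t) * B) (m : ℕ) : B * A.D m = A.D m * B := comm_D' e m

variable {A} in
theorem comm_E {B : Matrix I I k} (e : ∀ x, B * A.R x = A.R x * B) : B * A.E = A.E * B := comm_D (fun _ => e _) 1

variable {A} in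
theorem comm_F {B : Matrix I I k} (e : ∀ x, B * A.R x = A.R x * B) : B * A.F = A.F * B := by
  have h1 := comm_E (A := A.op) fun _ => e _
  rwa [op_E, mul_neg, neg_mul, _root_.neg_inj] at h1

variable {A} in
theorem D_eq_zero_of_fix {x : I → k} (hx : ∀ t, A.R (u t) *ᵥ x = x) {m : ℕ} (hm : 0 < m) : A.D m *ᵥ x = 0 := by
  have h1 : A.P * (Matrix.of fun i _ => x i).map C = (Matrix.of fun i _ => x i).map C := ev_ext fun t => by
    rw [ev_mul, ev_C, ← A.ev]
    ext i j
    exact congrFun (hx t) i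
  have h2 := congrArg (co m) h1
  rw [co_mul_C] at h2
  funext i
  exact (congrFun (congrFun h2 i) i).trans (coeff_C_of_ne_zero hm.ne')

theorem u_D (t : k) (m : ℕ) : A.R (u t) * A.D m = A.D m * A.R (u t) :=
  comm_D (fun s => by rw [← map_mul, ← map_mul, ← H943.SL2Rel.u_add, ← H943.SL2Rel.u_add, add_comm]) m

theorem u_E (t : k) : A.R (u t) * A.E = A.E * A.R (u t) := A.u_D t 1

theorem D_mul_D (a b : ℕ) : A.D a * A.D b = ((a + b).choose a : k) • A.D (a + b) := by
  have h1 : ∀ t, A.P * (A.R (u t)).map C = A.P.map (taylor t) := fun t => ev_ext fun s => by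
    rw [ev_mul, ev_C, ← A.ev, ← map_mul, ← H943.SL2Rel.u_add, A.ev]
    ext i j
    exact (taylor_eval _ _ _).symm
  have h2 : (A.D a).map C * A.P = A.P.map (hasseDeriv a) := ev_ext fun t => by
    have h3 := congrArg (co a) (h1 t)
    rw [co_mul_C] at h3
    rw [ev_mul, ev_C, ← A.ev, D, h3]
    ext i j
    exact taylor_coeff _ _ _
  have h3 := congrArg (co b) h2
  rw [co_C_mul] at h3
  rw [D, D, ← D, h3, add_comm a]
  ext i j
  exact hasseDeriv_coeff _ _ _

theorem E_mul_D (m : ℕ) : A.E * A.D m = ((m : k) + 1) • A.D (m + 1) := by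
  rw [E, D_mul_D, Nat.choose_one_right, add_comm, Nat.cast_succ]

theorem E_pow (m : ℕ) : A.E ^ m = (m.factorial : k) • A.D m := by
  induction m with
  | zero => rw [pow_zero, D_zero, Nat.factorial_zero, Nat.cast_one, one_smul]
  | succ m ih => rw [pow_succ', ih, mul_smul_comm, E_mul_D, smul_smul, Nat.factorial_succ, Nat.cast_mul, Nat.cast_succ,
      mul_comm]

theorem E_pow_p {p : ℕ} [CharP k p] (hp : 0 < p) : A.E ^ p = 0 := by
  rw [E_pow, (CharP.cast_eq_zero_iff k p _).2 (Nat.dvd_factorial hp le_rfl), zero_smul]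

theorem F_pow (m : ℕ) : A.F ^ m = ((-1) ^ m * m.factorial : k) • A.op.D m := by
  have h1 := A.op.E_pow m
  rw [op_E] at h1
  rw [mul_smul, ← h1, ← _root_.smul_pow, neg_smul, one_smul, neg_neg]

theorem F_pow_p {p : ℕ} [CharP k p] (hp : 0 < p) : A.F ^ p = 0 := by
  rw [F_pow, (CharP.cast_eq_zero_iff k p _).2 (Nat.dvd_factorial hp le_rfl), mul_zero, zero_smul]

omit [Infinite k] in
theorem H_comm {B : Matrix I I k} {d : ℤ} (hB : ∀ a b, B a b ≠ 0 → A.n a = A.n b + d) :
    A.H * B = B * A.H + (d : k) • B := by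
  ext i j
  rw [H, diagonal_mul, Matrix.add_apply, mul_diagonal, Matrix.smul_apply, smul_eq_mul]
  by_cases e : B i j = 0
  · rw [e]
    ring
  · rw [hB i j e]
    push_cast
    ring

omit [Infinite k] in
theorem h_comm {B : Matrix I I k} {d : ℤ} (hB : ∀ a b, B a b ≠ 0 → A.n a = A.n b + d) (z : kˣ) :
    A.R (h z) * B = ((z ^ d : kˣ) : k) • (B * A.R (h z)) := by
  ext i j
  rw [A.tor, diagonal_mul, Matrix.smul_apply, mul_diagonal, smul_eq_mul]
  by_cases e : B i j = 0
  · rw [e]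
    ring
  · rw [hB i j e, _root_.zpow_add, Units.val_mul]
    ring

theorem H_D (m : ℕ) : A.H * A.D m = A.D m * A.H + (2 * m : k) • A.D m := by
  rw [A.H_comm fun _ _ => D_wt]
  push_cast
  rfl

theorem H_E : A.H * A.E = A.E * A.H + (2 : k) • A.E := by
  rw [A.H_comm fun _ _ => E_wt]
  push_cast
  rfl

theorem H_F : A.H * A.F = A.F * A.H - (2 : k) • A.F := by
  rw [A.H_comm fun _ _ => F_wt, sub_eq_add_neg, ← neg_smul]
  push_cast
  rfl

theorem h_E (z : kˣ) : A.R (h z) * A.E = ((z ^ (2 : ℤ) : kˣ) : k) • (A.E * A.R (h z)) := A.h_comm (fun _ _ => E_wt) z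

theorem h_F (z : kˣ) : A.R (h z) * A.F = ((z ^ (-2 : ℤ) : kˣ) : k) • (A.F * A.R (h z)) := A.h_comm (fun _ _ => F_wt) z

omit [Infinite k] in
theorem h_H (z : kˣ) : A.R (h z) * A.H = A.H * A.R (h z) := by
  rw [A.tor, H, diagonal_mul_diagonal, diagonal_mul_diagonal]
  simp only [mul_comm]

theorem u_H (t : k) : A.R (u t) * A.H = (A.H - (2 * t) • A.E) * A.R (u t) := by
  have h1 : A.H.map C * A.P = A.P * A.H.map C + (X : k[X]) • (((2 : k) • A.E).map C * A.P) := co_ext fun m => by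
    rw [co_add, co_C_mul, co_mul_C, ← D, H_D]
    cases m with
    | zero => rw [co_X_zero, Nat.cast_zero, mul_zero, zero_smul]
    | succ m => rw [co_X, co_C_mul, ← D, smul_mul_assoc, E_mul_D, smul_smul, Nat.cast_succ]
  have h2 := congrArg (fun M => M.map (eval t)) h1
  simp only [ev_add, ev_mul, ev_C, ev_X, ← A.ev] at h2
  rw [sub_mul, h2, smul_mul_assoc, smul_mul_assoc, smul_smul, mul_comm t, add_sub_cancel_right]

omit [Infinite k] in
theorem w_E : A.R w * A.E = - A.F * A.R w := by rw [F, neg_neg, mul_assoc, R_inv_mul, mul_one]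

theorem w_H : A.R w * A.H = - A.H * A.R w := by
  ext i j
  rw [neg_mul, Matrix.neg_apply, H, mul_diagonal, diagonal_mul]
  by_cases e : A.R w i j = 0
  · rw [e]
    ring
  · rw [w_wt e]
    push_cast
    ring

theorem w_F : A.R w * A.F = - A.E * A.R w := by
  have h1 := A.h_E (-1)
  rw [show ((-1 : kˣ) ^ (2 : ℤ)) = 1 from Even.neg_one_zpow even_two, Units.val_one, one_smul, ← H943.SL2Rel.w_w,
    map_mul] at h1
  rw [F, mul_neg, ← mul_assoc, ← mul_assoc, h1, neg_mul, mul_assoc, mul_assoc, R_mul_inv, mul_one]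

theorem op_F : A.op.F = - A.E := by
  rw [F, op_E, op_w, mul_neg, w_F, neg_mul, neg_neg, op_R, mul_inv_cancel, one_mul, mul_assoc, R_mul_inv, mul_one]

theorem two_u_F (t : k) : (2 : k) • (A.R (u t) * A.F - A.F * A.R (u t)) = t • (A.H * A.R (u t) + A.R (u t) * A.H) := by
  by_cases ht : t = 0
  · rw [ht, H943.SL2Rel.u_zero, map_one, one_mul, mul_one, sub_self, smul_zero, zero_smul]
  ext i j
  have h1 := der (p := (((A.R (u t)).map C * A.op.P) i j).comp (C (-t⁻¹) * (X ^ 2 - 1)))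
    (q := ((A.op.P * (A.R (u t)).map C) i j).comp (C (-t⁻¹) * (X ^ 2 - 1))) (κ := A.n i + A.n j) fun y => by
    have h2 := congrArg A.R (u_v y (s := t⁻¹ * ((y : k) ^ 2 - 1)) (t := t) (by field_simp; ring))
    rw [map_mul, map_mul, map_mul, map_mul, R_v, A.op.ev, A.tor] at h2
    have h3 := congrFun (congrFun h2 i) j
    rw [mul_diagonal, diagonal_mul] at h3
    have h4 : ∀ (s : k) (M N : Matrix I I k[X]), eval s ((M * N) i j) = (M.map (eval s) * N.map (eval s)) i j :=
      fun s M N => congrFun (congrFun (ev_mul s M N) i) j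
    simp only [eval_comp, eval_mul, eval_C, eval_sub, eval_pow, eval_X, eval_one, neg_mul]
    rw [h4, h4, ev_C, h3, _root_.zpow_add, Units.val_mul]
    ring
  have h5 : ∀ p : k[X], eval 0 (derivative p) = p.coeff 1 := fun p => by
    rw [← coeff_zero_eq_eval_zero, coeff_derivative, Nat.cast_zero, zero_add, zero_add, mul_one]
  simp only [derivative_comp, eval_comp, eval_mul, eval_C, eval_sub, eval_pow, eval_X, eval_one, one_pow, sub_self,
    mul_zero, derivative_mul, derivative_C, derivative_sub, derivative_X_pow, derivative_one, zero_mul, zero_add, sub_zero,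
    mul_one, h5, ← coeff_zero_eq_eval_zero] at h1
  have h6 := congrFun (congrFun (co_C_mul 1 A.op.P (A.R (u t))) i) j
  have h7 := congrFun (congrFun (co_mul_C 1 A.op.P (A.R (u t))) i) j
  have h8 := congrFun (congrFun (co_mul_C 0 A.op.P (A.R (u t))) i) j
  rw [← D, ← E, op_E] at h6 h7
  rw [← D, D_zero, one_mul] at h8
  rw [co, map_apply] at h6 h7 h8
  rw [h6, h7, h8, mul_neg, neg_mul A.F, Matrix.neg_apply, Matrix.neg_apply] at h1
  rw [Matrix.smul_apply, Matrix.smul_apply, Matrix.sub_apply, Matrix.add_apply, H, diagonal_mul, mul_diagonal, smul_eq_mul,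
    smul_eq_mul]
  push_cast at h1
  have h9 := mul_inv_cancel₀ ht
  linear_combination t * h1 - 2 * ((A.R (u t) * A.F) i j - (A.F * A.R (u t)) i j) * h9

theorem u_F (h2 : (2 : k) ≠ 0) (t : k) : A.R (u t) * A.F = (A.F + t • A.H - t ^ 2 • A.E) * A.R (u t) := by
  refine smul_right_injective _ h2 ?_
  have h1 := A.two_u_F t
  rw [u_H, smul_sub, sub_eq_iff_eq_add] at h1
  simp only [h1, sub_mul, add_mul, smul_mul_assoc]
  module

theorem two_DF (m : ℕ) : (2 : k) • (A.D (m + 1) * A.F - A.F * A.D (m + 1)) = A.H * A.D m + A.D m * A.H := by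
  have h1 : A.P * ((2 : k) • A.F).map C - ((2 : k) • A.F).map C * A.P =
      (X : k[X]) • (A.H.map C * A.P + A.P * A.H.map C) := ev_ext fun t => by
    simp only [ev_sub, ev_add, ev_mul, ev_C, ev_X, ← A.ev]
    rw [← two_u_F, smul_sub, mul_smul_comm, smul_mul_assoc]
  have h2 := congrArg (co (m + 1)) h1
  rw [co_sub, co_X, co_add, co_mul_C, co_C_mul, co_mul_C, co_C_mul, ← D, ← D, mul_smul_comm, smul_mul_assoc] at h2
  rw [smul_sub, h2]

theorem DF (h2 : (2 : k) ≠ 0) (m : ℕ) : A.D (m + 1) * A.F - A.F * A.D (m + 1) = A.D m * A.H + (m : k) • A.D m := by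
  refine smul_right_injective _ h2 ?_
  simp only [two_DF, H_D]
  module

/-- `[E, F] = H` -/
theorem EF (h2 : (2 : k) ≠ 0) : A.E * A.F - A.F * A.E = A.H := by
  have h1 := A.DF h2 0
  rwa [D_zero, one_mul, Nat.cast_zero, zero_smul, add_zero] at h1

variable {A} in
theorem EF_mulVec (h2 : (2 : k) ≠ 0) {j : ℤ} {x : I → k} (hx : x ∈ A.Wt j) :
    A.E *ᵥ A.F *ᵥ x = A.F *ᵥ A.E *ᵥ x + (j : k) • x := by
  rw [← H_mulVec hx, ← A.EF h2, sub_mulVec, mulVec_mulVec, mulVec_mulVec, add_sub_cancel]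

variable {A} in
/-- **F4** -/
theorem f4 (h2 : (2 : k) ≠ 0) {j : ℤ} (hj : (j : k) ≠ 0) {x : I → k} (hx : x ∈ A.Wt j) (hE : A.E *ᵥ x = 0)
    (hF : A.F *ᵥ x = 0) : x = 0 := by
  have h1 := EF_mulVec h2 hx
  rw [hE, hF, mulVec_zero, mulVec_zero, zero_add] at h1
  exact (smul_eq_zero.1 h1.symm).resolve_left hj

/-- the weights are symmetric -/
theorem card_symm (j : ℤ) :
    (Finset.univ.filter fun i => A.n i = -j).card = (Finset.univ.filter fun i => A.n i = j).card := by
  obtain ⟨π, hπ⟩ := exists_perm A.R w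
  refine (Finset.card_equiv π fun i => ?_).symm
  simp only [Finset.mem_filter, Finset.mem_univ, true_and, w_wt (hπ i), _root_.neg_inj]

end Rep2

end Cfsg.Agent.E7P.Rsl
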