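import Cfsg.Agent.E7P.Rsl.Rep
import Cfsg.Agent.E7P.Lie.Exp
import Cfsg.Agent.E7P.Br.Pi
import Cfsg.Agent.E7P.Nt.Nt

/-!
# S5932: one rational `SL₂` in standard position (helper61)

* `Std k` : a homomorphism `SL₂(k) → Gh k` with torus `lam l` and polynomial root group;
* `X.V`, `X.L` : the modules `V` and `g` as `Rep2`; `X.e`, `X.f`, `X.hh` : the `sl₂`-triple; `X.sp` : its span;
* `X.op`, `X.frob`, `X.move`; `Std.tw` : intertwiners.
-/

set_option autoImplicit false
set_option maxRecDepth 100000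
set_option maxHeartbeats 400000

namespace Cfsg.Agent.E7P.Rsl

open Cfsg Cfsg.Lie Matrix Polynomial Module
open Cfsg.Agent.H943.E7V.Block (D1 rho)
open Cfsg.Agent.R2.T1 Cfsg.Agent.E7P.Kf Cfsg.Agent.E7P.Br
open Cfsg.Agent.R2.PX (del)
open Cfsg.Agent.H943.SL2Rel (u w h)

universe u

variable {k : Type u} [Field k]

/-- the value of the weight `c` on the cocharacter `l` -/
def lev (l c : Fin 7 → ℤ) : ℤ := ∑ i, c i * l i

theorem lev_cast (l c : Fin 7 → ℤ) : (lev l c : ℝ) = bf (lE l) (cv c) := (bf_lE l c).symm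

theorem lev_add (l c d : Fin 7 → ℤ) : lev l (c + d) = lev l c + lev l d := by
  simp only [lev, Pi.add_apply, add_mul, Finset.sum_add_distrib]

theorem lev_neg (l c : Fin 7 → ℤ) : lev l (-c) = - lev l c := by
  simp only [lev, Pi.neg_apply, neg_mul, Finset.sum_neg_distrib]

theorem neg_lev (l c : Fin 7 → ℤ) : lev (-l) c = - lev l c := by
  simp only [lev, Pi.neg_apply, mul_neg, Finset.sum_neg_distrib]

theorem add_lev (l m c : Fin 7 → ℤ) : lev (l + m) c = lev l c + lev m c := by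
  simp only [lev, Pi.add_apply, mul_add, Finset.sum_add_distrib]

theorem lev_zero (l : Fin 7 → ℤ) : lev l 0 = 0 := by simp [lev]

theorem sum_lev {ι : Type*} (s : Finset ι) (l : ι → Fin 7 → ℤ) (c : Fin 7 → ℤ) :
    lev (∑ i ∈ s, l i) c = ∑ i ∈ s, lev (l i) c := by
  simp only [lev, Finset.sum_apply, Finset.mul_sum]
  exact Finset.sum_comm

theorem tor_lam {I : Type*} [Fintype I] [DecidableEq I] {c : I → Fin 7 → ℤ} {R : Gh k →* Matrix I I k} (hR : WRep c R)
    (l : Fin 7 → ℤ) (z : kˣ) : R (Phi k (lam l z)) = diagonal fun i => ((z ^ lev l (c i) : kˣ) : k) := by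
  rw [hR.tor]
  simp only [ch_lam]
  rfl

/-- the Weyl group on the cocharacters -/
theorem exists_wL_lE (v : List (Fin 7)) (l : Fin 7 → ℤ) : ∃ l', lE l' = wL v (lE l) := by
  induction v with
  | nil => exact ⟨l, rfl⟩
  | cons i v ih =>
    obtain ⟨l', e⟩ := ih
    refine ⟨l' - Pi.single i (nt_lb l' i), ?_⟩
    rw [wL_cons, ← e, sr_apply]
    simp only [lE, Pi.sub_apply, Int.cast_sub, sub_smul, Finset.sum_sub_distrib]
    congr 1
    rw [Finset.sum_eq_single i (fun j _ hj => by rw [Pi.single_eq_of_ne hj, Int.cast_zero, zero_smul])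
      (fun e => absurd (Finset.mem_univ _) e), Pi.single_eq_same]
    exact congrArg (· • al i) (congrFun (nt_cv_lb l') i)

theorem adM_of_comm (h2 : (2 : k) ≠ 0) {y : Gh k} {z z' : chevE7.Idx → k}
    (e : rho k y * del k z = del k z' * rho k y) : adM k y *ᵥ z = z' :=
  Mu.del_injective (by rw [del_adM h2, e, mul_assoc, ← map_mul, mul_inv_cancel, map_one, mul_one])

section
variable {I J : Type*} [Fintype I] [DecidableEq I]

/-- a linear map on polynomial matrices -/
noncomputable def lift (φ : Matrix I I k →ₗ[k] (J → k)) (M : Matrix I I k[X]) (a : J) : k[X] :=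
  ∑ i, ∑ j, C (φ (Matrix.single i j 1) a) * M i j

theorem lift_aux (φ : Matrix I I k →ₗ[k] (J → k)) (B : Matrix I I k) (a : J) :
    ∑ i, ∑ j, φ (Matrix.single i j 1) a * B i j = φ B a := by
  conv_rhs => rw [matrix_eq_sum_single B, map_sum, Finset.sum_apply]
  refine Finset.sum_congr rfl fun i _ => ?_
  rw [map_sum, Finset.sum_apply]
  refine Finset.sum_congr rfl fun j _ => ?_
  rw [← mul_one (B i j), ← smul_eq_mul (B i j), ← Matrix.smul_single, map_smul, Pi.smul_apply, smul_eq_mul, smul_eq_mul,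
    mul_one, mul_comm]

theorem eval_lift (φ : Matrix I I k →ₗ[k] (J → k)) (M : Matrix I I k[X]) (a : J) (t : k) :
    eval t (lift φ M a) = φ (M.map (eval t)) a := by
  simp only [lift, eval_finsetSum, eval_mul, eval_C, ← lift_aux φ (M.map (eval t)), map_apply]

theorem coeff_lift (φ : Matrix I I k →ₗ[k] (J → k)) (M : Matrix I I k[X]) (a : J) (m : ℕ) :
    (lift φ M a).coeff m = φ (co m M) a := by
  rw [← lift_aux φ (co m M)]
  simp only [lift, finsetSum_coeff, coeff_C_mul, co, map_apply]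

omit [Fintype I] [DecidableEq I] in
theorem co_map (s : k →+* k) (M : Matrix I I k[X]) (m : ℕ) : co m (M.map (Polynomial.map s)) = (co m M).map s := by
  ext i j
  exact coeff_map _ _

omit [Fintype I] [DecidableEq I] in
theorem ev_map (s : k →+* k) (M : Matrix I I k[X]) (t : k) :
    (M.map (Polynomial.map s)).map (eval (s t)) = (M.map (eval t)).map s := by
  ext i j
  exact eval_map_apply s t

omit [DecidableEq I] in
theorem co_one_mul (M N : Matrix I I k[X]) : co 1 (M * N) = co 0 M * co 1 N + co 1 M * co 0 N := by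
  ext i j
  simp only [co, map_apply, mul_apply, finsetSum_coeff, mul_coeff_one, Matrix.add_apply, Finset.sum_add_distrib]

end

variable (k) in
/-- a left inverse of `del` -/
noncomputable def dl : Matrix D1 D1 k →ₗ[k] (chevE7.Idx → k) :=
  ((del k).exists_leftInverse_of_injective (LinearMap.ker_eq_bot.2 Mu.del_injective)).choose

theorem dl_del (z : chevE7.Idx → k) : dl k (del k z) = z :=
  LinearMap.congr_fun ((del k).exists_leftInverse_of_injective (LinearMap.ker_eq_bot.2 Mu.del_injective)).choose_spec z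

/-- **a rational `SL₂` in standard position** -/
structure Std (k : Type u) [Field k] where
  Ξ : SpecialLinearGroup (Fin 2) k →* Gh k
  l : Fin 7 → ℤ
  tor : ∀ z, Ξ (h z) = Phi k (lam l z)
  e : chevE7.Idx → k
  P : Matrix D1 D1 k[X]
  ev : ∀ t, rho k (Ξ (u t)) = P.map (eval t)
  one : co 1 P = del k e
  ne : e ≠ 0
  two : (2 : k) ≠ 0

namespace Std

variable (X : Std k)

/-- the module `V` -/
noncomputable def V : Rep2 k D1 where
  R := (rho k).comp X.Ξ
  n s := lev X.l (wc s)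
  tor z := (congrArg (rho k) (X.tor z)).trans (tor_lam wrep_V X.l z)
  P := X.P
  ev := X.ev

/-- the polynomial matrix of the root group on `g` -/
noncomputable def LP : Matrix chevE7.Idx chevE7.Idx k[X] := Matrix.of fun a b =>
  lift (dl k) (X.P * (del k (Pi.single b 1)).map C * X.P.map fun q => q.comp (-Polynomial.X)) a

/-- the module `g` -/
noncomputable def L : Rep2 k chevE7.Idx where
  R := (adM k).comp X.Ξ
  n a := lev X.l (ac a)
  tor z := (congrArg (adM k) (X.tor z)).trans (tor_lam wrep_L X.l z)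
  P := X.LP
  ev t := by
    ext a b
    have h1 : (X.P.map fun q => q.comp (-Polynomial.X)).map (eval t) = rho k (X.Ξ (u t))⁻¹ := by
      rw [← map_inv, ← H943.SL2Rel.u_neg, X.ev]
      ext i j
      simp only [map_apply, eval_comp, eval_neg, eval_X]
    rw [map_apply, LP, of_apply, eval_lift, ev_mul, ev_mul, ev_C, ← X.ev, h1, ← del_adM X.two, dl_del, mulVec_single_one]
    rfl

theorem V_R (x : SpecialLinearGroup (Fin 2) k) : X.V.R x = rho k (X.Ξ x) := rfl

theorem L_R (x : SpecialLinearGroup (Fin 2) k) : X.L.R x = adM k (X.Ξ x) := rfl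

theorem L_P : X.L.P = X.LP := rfl

theorem V_n (s : D1) : X.V.n s = lev X.l (wc s) := rfl

theorem L_n (a : chevE7.Idx) : X.L.n a = lev X.l (ac a) := rfl

theorem mem_V_Wt {j : ℤ} {x : D1 → k} : x ∈ X.V.Wt j ↔ x ∈ Br.Lv k wc (lE X.l) j :=
  forall_congr' fun i => imp_congr_right fun _ => by rw [← lev_cast, Int.cast_inj, V_n]

theorem mem_L_Wt {j : ℤ} {x : chevE7.Idx → k} : x ∈ X.L.Wt j ↔ x ∈ Br.Lv k ac (lE X.l) j :=
  forall_congr' fun i => imp_congr_right fun _ => by rw [← lev_cast, Int.cast_inj, L_n]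

/-- the lowering element -/
noncomputable def f : chevE7.Idx → k := - (adM k (X.Ξ w) *ᵥ X.e)

/-- the toral element -/
def hh : chevE7.Idx → k := tv fun i => (X.l i : k)

theorem V_E : X.V.E = del k X.e := X.one

theorem V_F : X.V.F = del k X.f := by
  rw [Rep2.F, V_E, f, map_neg, del_adM X.two, V_R, V_R, map_inv X.Ξ]

theorem V_H : X.V.H = del k X.hh := by
  rw [hh, Lb.del_tv, Rep2.H]
  congr 1
  funext s
  rw [V_n, lev]
  push_cast
  exact Finset.sum_congr rfl fun i _ => mul_comm _ _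

theorem f_ne : X.f ≠ 0 := fun e => X.ne (by
  rw [← mulVec_inv (adM k) (X.Ξ w) X.e, neg_eq_zero.1 e, mulVec_zero])

theorem L_E (z : chevE7.Idx → k) : X.L.E *ᵥ z = br k X.e z := by
  have h1 : X.L.E = LinearMap.toMatrix' (br k X.e) := by
    ext a b
    have h2 : ∀ m, co m (X.P.map fun q => q.comp (-Polynomial.X)) = (-1 : k) ^ m • X.V.D m := fun m => by
      ext i j
      have h3 := comp_C_mul_X_coeff (p := X.P i j) (r := -1) (n := m)
      rw [map_neg, map_one, neg_one_mul] at h3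
      exact h3.trans (mul_comm _ _)
    rw [Rep2.E, Rep2.D, co, map_apply, L_P, LP, of_apply, coeff_lift, co_one_mul, co_mul_C, co_mul_C, h2, h2, X.one, show co 0 X.P = 1 from X.V.D_zero, X.V.D_zero,
      show X.V.D 1 = del k X.e from X.one, pow_zero, one_smul, mul_one, one_mul, pow_one, neg_one_smul, mul_neg,
      neg_add_eq_sub, ← del_br, dl_del, LinearMap.toMatrix'_apply]
  rw [h1, LinearMap.toMatrix'_mulVec]

theorem L_F (z : chevE7.Idx → k) : X.L.F *ᵥ z = br k X.f z := by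
  rw [Rep2.F, neg_mulVec, ← mulVec_mulVec, ← mulVec_mulVec, L_E, L_R, L_R, adM_br X.two, map_inv X.Ξ, mulVec_inv', f,
    map_neg, LinearMap.neg_apply]

/-- the opposite `SL₂` -/
noncomputable def op : Std k where
  Ξ := X.Ξ.comp (MulAut.conj w).toMonoidHom
  l := - X.l
  tor z := by
    show X.Ξ (w * h z * w⁻¹) = _
    rw [w_h, X.tor]
    congr 1
    funext i
    exact (_root_.inv_zpow' _ _)
  e := - X.f
  P := X.V.op.P
  ev := X.V.op.ev
  one := by rw [map_neg, ← V_F, ← Rep2.op_E]; rfl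
  ne := neg_ne_zero.2 X.f_ne
  two := X.two

theorem op_Ξ (x : SpecialLinearGroup (Fin 2) k) : X.op.Ξ x = X.Ξ (w * x * w⁻¹) := rfl

theorem op_l : X.op.l = - X.l := rfl

theorem op_e : X.op.e = - X.f := rfl

/-- the conjugate under an element of the Weyl group -/
noncomputable def move [Infinite k] (v : List (Fin 7)) : Std k where
  Ξ := (MulAut.conj (nL k v)).toMonoidHom.comp X.Ξ
  l := (exists_wL_lE v X.l).choose
  tor z := by
    show nL k v * X.Ξ (h z) * (nL k v)⁻¹ = _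
    rw [X.tor, nt_conj_lam v (exists_wL_lE v X.l).choose_spec]
  e := adM k (nL k v) *ᵥ X.e
  P := (rho k (nL k v)).map C * X.P * (rho k (nL k v)⁻¹).map C
  ev t := by
    show rho k (nL k v * X.Ξ (u t) * (nL k v)⁻¹) = _
    rw [map_mul, map_mul, ev_mul, ev_mul, ev_C, ev_C, X.ev]
  one := by rw [co_mul_C, co_C_mul, X.one, del_adM X.two]
  ne e := X.ne (by rw [← mulVec_inv (adM k) (nL k v) X.e, e, mulVec_zero])
  two := X.two

/-- the image under a field automorphism -/
noncomputable def frob (s : k ≃+* k) : Std k where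
  Ξ := ((emb (s : k →+* k)).comp X.Ξ).comp (SpecialLinearGroup.map (s.symm : k →+* k))
  l := X.l
  tor z := by
    show emb (s : k →+* k) (X.Ξ (SpecialLinearGroup.map (s.symm : k →+* k) (h z))) = _
    rw [map_h, X.tor, emb_Phi]
    congr 1
    funext i
    have h1 : Units.map ((s : k →+* k) : k →* k) (Units.map ((s.symm : k →+* k) : k →* k) z) = z :=
      Units.ext (s.apply_symm_apply _)
    exact (map_zpow _ _ _).trans (congrArg (· ^ X.l i) h1)
  e i := s (X.e i)
  P := X.P.map (Polynomial.map (s : k →+* k))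
  ev t := by
    show rho k (emb (s : k →+* k) (X.Ξ (SpecialLinearGroup.map (s.symm : k →+* k) (u t)))) = _
    rw [map_u, rho_emb, X.ev, ← ev_map]
    exact congrArg (fun t => (X.P.map (Polynomial.map (s : k →+* k))).map (eval t)) (s.apply_symm_apply t)
  one := by rw [co_map, X.one]; exact del_map (s : k →+* k) X.e
  ne e := X.ne (funext fun i => s.injective ((congrFun e i).trans (map_zero s).symm))
  two := X.two

theorem frob_l (s : k ≃+* k) : (X.frob s).l = X.l := rfl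

theorem frob_Ξ (s : k ≃+* k) (x : SpecialLinearGroup (Fin 2) k) :
    (X.frob s).Ξ (SpecialLinearGroup.map (s : k →+* k) x) = emb (s : k →+* k) (X.Ξ x) := by
  show emb (s : k →+* k) (X.Ξ (SpecialLinearGroup.map (s.symm : k →+* k) _)) = _
  congr 2
  refine Subtype.ext ?_
  ext i j
  exact s.symm_apply_apply _

theorem frob_e (s : k ≃+* k) : (X.frob s).e = fun i => s (X.e i) := rfl

theorem frob_f (s : k ≃+* k) : (X.frob s).f = fun i => s (X.f i) := by
  funext i
  have h1 := X.frob_Ξ s w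
  rw [map_w] at h1
  rw [f, h1, adM_emb, f, Pi.neg_apply, Pi.neg_apply, map_neg, _root_.neg_inj]
  exact (RingHom.map_mulVec (s : k →+* k) _ _ i).symm

theorem frob_hh (s : k ≃+* k) : (X.frob s).hh = fun i => s (X.hh i) := by
  funext i
  rcases i with i | r
  · exact (map_intCast s _).symm
  · exact (map_zero s).symm

theorem frob_V_D (s : k ≃+* k) (m : ℕ) : (X.frob s).V.D m = (X.V.D m).map s := co_map (s : k →+* k) X.P m

/-- the span of the triple -/
noncomputable def sp : Submodule k (chevE7.Idx → k) := Submodule.span k {X.e, X.hh, X.f}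

theorem e_mem_sp : X.e ∈ X.sp := Submodule.subset_span (Or.inl rfl)

theorem hh_mem_sp : X.hh ∈ X.sp := Submodule.subset_span (Or.inr (Or.inl rfl))

theorem f_mem_sp : X.f ∈ X.sp := Submodule.subset_span (Or.inr (Or.inr rfl))

theorem sp_le {W : Submodule k (chevE7.Idx → k)} (h1 : X.e ∈ W) (h2 : X.hh ∈ W) (h3 : X.f ∈ W) : X.sp ≤ W :=
  Submodule.span_le.2 (by rintro _ (rfl | rfl | rfl) <;> assumption)

variable [Infinite k]

theorem move_Ξ (v : List (Fin 7)) (x : SpecialLinearGroup (Fin 2) k) :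
    (X.move v).Ξ x = nL k v * X.Ξ x * (nL k v)⁻¹ := rfl

theorem move_l (v : List (Fin 7)) : lE (X.move v).l = wL v (lE X.l) := (exists_wL_lE v X.l).choose_spec

theorem frob_L_D (s : k ≃+* k) (m : ℕ) : (X.frob s).L.D m = (X.L.D m).map s := by
  have h1 : (X.frob s).L.P = X.L.P.map (Polynomial.map (s : k →+* k)) := ev_ext fun t => by
    obtain ⟨t, rfl⟩ := s.surjective t
    have h2 : (X.frob s).Ξ (u (s t)) = emb (s : k →+* k) (X.Ξ (u t)) := by
      rw [← X.frob_Ξ s (u t), map_u]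
      rfl
    rw [← Rep2.ev, L_R, h2, adM_emb, ← L_R, X.L.ev]
    exact (ev_map (s : k →+* k) X.L.P t).symm
  rw [Rep2.D, h1, Rep2.D]
  exact co_map (s : k →+* k) X.L.P m

theorem br_ef : br k X.e X.f = X.hh :=
  Mu.del_injective (by rw [del_br, ← V_E, ← V_F, ← V_H, X.V.EF X.two])

theorem L_H (z : chevE7.Idx → k) : X.L.H *ᵥ z = br k X.hh z := by
  rw [← X.L.EF X.two, sub_mulVec, ← mulVec_mulVec, ← mulVec_mulVec, L_E, L_F, L_E, L_F, br_jacobi, br_ef,
    add_sub_cancel_right]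

theorem u_e (t : k) : adM k (X.Ξ (u t)) *ᵥ X.e = X.e := adM_of_comm X.two (by rw [← V_E]; exact X.V.u_E t)

theorem u_hh (t : k) : adM k (X.Ξ (u t)) *ᵥ X.hh = X.hh - (2 * t) • X.e :=
  adM_of_comm X.two (by rw [map_sub, map_smul, ← V_E, ← V_H]; exact X.V.u_H t)

theorem u_f (t : k) : adM k (X.Ξ (u t)) *ᵥ X.f = X.f + t • X.hh - t ^ 2 • X.e :=
  adM_of_comm X.two (by rw [map_sub, map_add, map_smul, map_smul, ← V_E, ← V_H, ← V_F]; exact X.V.u_F X.two t)

omit [Infinite k] in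
theorem w_e : adM k (X.Ξ w) *ᵥ X.e = - X.f := (neg_neg _).symm

theorem w_hh : adM k (X.Ξ w) *ᵥ X.hh = - X.hh := adM_of_comm X.two (by rw [map_neg, ← V_H]; exact X.V.w_H)

theorem w_f : adM k (X.Ξ w) *ᵥ X.f = - X.e := adM_of_comm X.two (by rw [map_neg, ← V_E, ← V_F]; exact X.V.w_F)

theorem h_e (z : kˣ) : adM k (X.Ξ (h z)) *ᵥ X.e = ((z ^ (2 : ℤ) : kˣ) : k) • X.e :=
  adM_of_comm X.two (by rw [map_smul, ← V_E, smul_mul_assoc]; exact X.V.h_E z)

theorem h_f (z : kˣ) : adM k (X.Ξ (h z)) *ᵥ X.f = ((z ^ (-2 : ℤ) : kˣ) : k) • X.f :=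
  adM_of_comm X.two (by rw [map_smul, ← V_F, smul_mul_assoc]; exact X.V.h_F z)

omit [Infinite k] in
theorem h_hh (z : kˣ) : adM k (X.Ξ (h z)) *ᵥ X.hh = X.hh := by rw [X.tor, hh, adM_Phi_tv]

theorem e_mem : X.e ∈ X.L.Wt 2 := Rep2.mem_Wt_of_h X.h_e

theorem f_mem : X.f ∈ X.L.Wt (-2) := Rep2.mem_Wt_of_h X.h_f

theorem hh_mem : X.hh ∈ X.L.Wt 0 := Rep2.mem_Wt_of_h fun z => by rw [zpow_zero, Units.val_one, one_smul]; exact X.h_hh z

theorem op_f : X.op.f = - X.e := by
  rw [f, op_Ξ, mul_inv_cancel_right, op_e, mulVec_neg, w_f, neg_neg]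

theorem br_he : br k X.hh X.e = (2 : k) • X.e := by
  rw [← L_H, Rep2.H_mulVec X.e_mem, Int.cast_ofNat]

theorem br_hf : br k X.hh X.f = (-2 : k) • X.f := by
  rw [← L_H, Rep2.H_mulVec X.f_mem, Int.cast_neg, Int.cast_ofNat]

theorem exists_root : ∃ r : Fin chevE7.nroots, X.e (Sum.inr r) ≠ 0 ∧ lev X.l (rc r) = 2 := by
  obtain ⟨a, ha⟩ := Function.ne_iff.1 X.ne
  have h1 := X.e_mem a ha
  rcases a with a | r
  · rw [L_n, ac_inl, lev_zero] at h1
    omega
  · exact ⟨r, ha, h1⟩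

theorem l_ne : X.l ≠ 0 := fun e => by
  obtain ⟨r, -, hr⟩ := X.exists_root
  simp [e, lev] at hr

/-- the span of the triple is stable -/
theorem sp_stab (x : SpecialLinearGroup (Fin 2) k) : ∀ z ∈ X.sp, adM k (X.Ξ x) *ᵥ z ∈ X.sp := by
  have key : ∀ y : Gh k, adM k y *ᵥ X.e ∈ X.sp → adM k y *ᵥ X.hh ∈ X.sp → adM k y *ᵥ X.f ∈ X.sp →
      ∀ z ∈ X.sp, adM k y *ᵥ z ∈ X.sp := fun y h1 h2 h3 => X.sp_le (W := X.sp.comap (toLin' (adM k y))) h1 h2 h3
  have he := X.e_mem_sp
  have hh := X.hh_mem_sp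
  have hf := X.f_mem_sp
  refine H943.SL2Rel.induct (P := fun x => ∀ z ∈ X.sp, adM k (X.Ξ x) *ᵥ z ∈ X.sp) (fun t => key _ ?_ ?_ ?_)
    (fun a => key _ ?_ ?_ ?_) (key _ ?_ ?_ ?_) (fun a b ha hb z hz => ?_) x
  · rwa [u_e]
  · rw [u_hh]
    exact sub_mem hh (Submodule.smul_mem _ _ he)
  · rw [u_f]
    exact sub_mem (add_mem hf (Submodule.smul_mem _ _ hh)) (Submodule.smul_mem _ _ he)
  · rw [h_e]
    exact Submodule.smul_mem _ _ he
  · rwa [h_hh]
  · rw [h_f]
    exact Submodule.smul_mem _ _ hf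
  · rw [w_e]
    exact neg_mem hf
  · rw [w_hh]
    exact neg_mem hh
  · rw [w_f]
    exact neg_mem he
  · rw [map_mul, mulVec_mul]
    exact ha _ (hb z hz)

theorem u_f_ne : adM k (X.Ξ (u 1)) *ᵥ X.f ≠ X.f := fun e => by
  rw [u_f, one_pow, one_smul, one_smul, add_sub_assoc, add_eq_left, sub_eq_zero] at e
  obtain ⟨r, hr, -⟩ := X.exists_root
  exact hr (by rw [← e]; rfl)

variable {X} in
/-- an element which fixes `e` and `f` fixes the triple -/
theorem fix_sp {y : Gh k} (h1 : adM k y *ᵥ X.e = X.e) (h2 : adM k y *ᵥ X.f = X.f) :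
    ∀ z ∈ X.sp, adM k y *ᵥ z = z := fun z hz =>
  X.sp_le (W := LinearMap.eqLocus (toLin' (adM k y)) LinearMap.id) h1
    (show adM k y *ᵥ X.hh = X.hh by rw [← br_ef, adM_br X.two, h1, h2]) h2 hz

section
variable {X} {Y : Std k} {y : Gh k} (hy : ∀ x, y * X.Ξ x = Y.Ξ x * y)
include hy

omit [Infinite k] in
theorem tw_R {I : Type*} [Fintype I] [DecidableEq I] (R : Gh k →* Matrix I I k) (x : SpecialLinearGroup (Fin 2) k) :
    R y * R (X.Ξ x) = R (Y.Ξ x) * R y := by rw [← map_mul, hy, map_mul]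

theorem tw_V_D (m : ℕ) : rho k y * X.V.D m = Y.V.D m * rho k y := Rep2.comm_D' (fun _ => tw_R hy (rho k) _) m

theorem tw_L_D (m : ℕ) : adM k y * X.L.D m = Y.L.D m * adM k y := Rep2.comm_D' (fun _ => tw_R hy (adM k) _) m

theorem tw_e : adM k y *ᵥ X.e = Y.e := adM_of_comm X.two (by rw [← V_E, ← V_E]; exact tw_V_D hy 1)

theorem tw_f : adM k y *ᵥ X.f = Y.f := by
  rw [f, f, mulVec_neg, ← mulVec_mul, hy, mulVec_mul, tw_e hy]

theorem tw_hh : adM k y *ᵥ X.hh = Y.hh := by rw [← br_ef, adM_br X.two, tw_e hy, tw_f hy, br_ef]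

theorem tw_sp : ∀ z ∈ X.sp, adM k y *ᵥ z ∈ Y.sp :=
  X.sp_le (W := Y.sp.comap (toLin' (adM k y))) ((tw_e hy).symm ▸ Y.e_mem_sp : adM k y *ᵥ X.e ∈ Y.sp)
    ((tw_hh hy).symm ▸ Y.hh_mem_sp : adM k y *ᵥ X.hh ∈ Y.sp) ((tw_f hy).symm ▸ Y.f_mem_sp : adM k y *ᵥ X.f ∈ Y.sp)

theorem tw_V_n {a b : D1} (e : rho k y a b ≠ 0) : Y.V.n a = X.V.n b :=
  (Rep2.wt_of_tw (d := 0) (fun z => by
    rw [zpow_zero, Units.val_one, one_smul]; exact (tw_R hy (rho k) _).symm) e).trans (add_zero _)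

theorem tw_L_n {a b : chevE7.Idx} (e : adM k y a b ≠ 0) : Y.L.n a = X.L.n b :=
  (Rep2.wt_of_tw (d := 0) (fun z => by
    rw [zpow_zero, Units.val_one, one_smul]; exact (tw_R hy (adM k) _).symm) e).trans (add_zero _)

/-- conjugate cocharacters -/
theorem tw_l : ∃ v, lE Y.l = wL v (lE X.l) := by
  obtain ⟨v, hv⟩ := conj_T_nL y
  refine ⟨v, ?_⟩
  have h1 : ∀ z, (X.move v).Ξ (h z) = Y.Ξ (h z) := fun z => by
    rw [move_Ξ, X.tor, Y.tor]
    exact hv _ _ (by rw [← X.tor, ← Y.tor, hy, mul_inv_cancel_right])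
  rw [← move_l]
  refine eq_of_bf_wv fun s => ?_
  rw [wv, ← lev_cast, ← lev_cast, Int.cast_inj]
  refine Rep2.eq_of_zpow (k := k) fun z => Units.ext ?_
  have h2 := congrFun (congrFun (((X.move v).V.tor z).symm.trans ((congrArg (rho k) (h1 z)).trans (Y.V.tor z))) s) s
  rw [diagonal_apply_eq, diagonal_apply_eq] at h2
  exact h2.symm

theorem tw_norm : bf (lE Y.l) (lE Y.l) = bf (lE X.l) (lE X.l) := by
  obtain ⟨v, hv⟩ := tw_l hy
  rw [hv, wL_iso]

end

/-- the root group is unipotent for every `β` which is compatible with the weights of the `D m` -/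
theorem u_mem_Ul {β : Kf.E} (hβ : ∀ m, 0 < m → ∀ a b, X.V.D m a b ≠ 0 → bf β (wv b) < bf β (wv a)) (t : k) :
    X.Ξ (u t) ∈ Ul k β := by
  refine mem_Ul_of_stri fun a b hab => ?_
  obtain ⟨N, hN⟩ := X.V.exists_bound
  rw [← V_R, X.V.R_u_eq (N := N + 1) fun m hm => hN m (by omega), Finset.sum_range_succ', pow_zero, one_smul,
    Rep2.D_zero, add_sub_cancel_right, Matrix.sum_apply] at hab
  obtain ⟨m, -, hm⟩ := Finset.exists_ne_zero_of_sum_ne_zero hab
  exact hβ _ m.succ_pos a b (right_ne_zero_of_mul hm)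

theorem u_mem_Ul' (t : k) : X.Ξ (u t) ∈ Ul k (lE X.l) := X.u_mem_Ul (fun m hm a b e => by
  have h1 := Rep2.D_wt e
  rw [V_n, V_n] at h1
  rw [wv, wv, ← lev_cast, ← lev_cast, Int.cast_lt]
  omega) t

end Std

end Cfsg.Agent.E7P.Rsl
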